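import Cfsg.Agent.H50.RG.LStmts
import Cfsg.Agent.H365.Zsig
import Mathlib

/-!
# S5714, RG-L20: numerics (helper270)
-/

set_option autoImplicit false

namespace Cfsg.Agent.H270.RG

open Filter Topology

/-- polynomial against exponential -/
theorem exp_large (C : ℕ) : ∃ U : ℕ, ∀ u : ℕ, U ≤ u → 256 * 4 ^ C * (u + 1) ^ (4 * (4 * C + 1)) ≤ 2 ^ u := by
  have h := tendsto_pow_const_div_const_pow_of_one_lt (4 * (4 * C + 1)) (one_lt_two (α := ℝ))
  have hpos : (0 : ℝ) < 1 / (512 * 4 ^ C) := by positivity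
  obtain ⟨U, hU⟩ := eventually_atTop.1 (h.eventually (gt_mem_nhds hpos))
  refine ⟨U, fun u hu => ?_⟩
  have h1 := hU (u + 1) (by omega)
  rw [div_lt_div_iff₀ (by positivity) (by positivity), one_mul, pow_succ (2 : ℝ) u] at h1
  have h2 : ((256 * 4 ^ C * (u + 1) ^ (4 * (4 * C + 1)) : ℕ) : ℝ) ≤ ((2 ^ u : ℕ) : ℝ) := by
    push_cast
    push_cast at h1
    nlinarith
  exact_mod_cast h2

/-- `16 e M ^ 2 ≤ q ^ φ(e)` -/
theorem bound_M {C n q e s u : ℕ} (hn : 1 ≤ n) (hq : 2 ≤ q) (hU : 256 * 4 ^ C * (u + 1) ^ (4 * (4 * C + 1)) ≤ 2 ^ u)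
    (hu : u * u ≤ s) (hu' : s < (u + 1) * (u + 1)) (hs : n < (s + 1) * (s + 1)) (he : 2 * s ≤ e) (he0 : 0 < e)
    (hen : e ≤ n) :
    16 * e * (⌈((n : ℝ) ^ 2 * Real.log q) ^ C⌉₊ + 2) ^ 2 ≤ q ^ e.totient := by
  have hφ : u ≤ e.totient := by
    have h1 := Cfsg.Agent.H365.Zsig.le_two_mul_totient_sq he0
    by_contra hcon
    have h2 : e.totient ^ 2 < u * u := by
      rw [sq]
      exact Nat.mul_self_lt_mul_self (not_le.1 hcon)
    omega
  have hn4 : n ≤ (u + 1) ^ 4 := by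
    have h1 : s + 1 ≤ (u + 1) * (u + 1) := hu'
    have h2 : (s + 1) * (s + 1) ≤ ((u + 1) * (u + 1)) * ((u + 1) * (u + 1)) := Nat.mul_le_mul h1 h1
    have h3 : (u + 1) ^ 4 = ((u + 1) * (u + 1)) * ((u + 1) * (u + 1)) := by ring
    omega
  have hn5 : 256 * 4 ^ C * n ^ (4 * C + 1) ≤ 2 ^ e.totient := by
    refine le_trans (le_trans (Nat.mul_le_mul_left _ (Nat.pow_le_pow_left hn4 _)) ?_)
      (Nat.pow_le_pow_right (by norm_num) hφ)
    rw [← pow_mul]
    exact hU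
  -- `M ≤ 4 (n² q)^C`
  have hM : ⌈((n : ℝ) ^ 2 * Real.log q) ^ C⌉₊ + 2 ≤ 4 * (n ^ 2 * q) ^ C := by
    have hlog0 : 0 ≤ Real.log q := Real.log_natCast_nonneg q
    have hlog : Real.log q ≤ q := by
      have := Real.log_le_sub_one_of_pos (x := (q : ℝ)) (by positivity)
      linarith
    have h1 : ((n : ℝ) ^ 2 * Real.log q) ^ C ≤ ((n : ℝ) ^ 2 * q) ^ C :=
      pow_le_pow_left₀ (by positivity) (mul_le_mul_of_nonneg_left hlog (by positivity)) C
    have h2 : ⌈((n : ℝ) ^ 2 * Real.log q) ^ C⌉₊ ≤ (n ^ 2 * q) ^ C := by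
      rw [Nat.ceil_le]
      push_cast
      exact h1
    have h3 : 1 ≤ (n ^ 2 * q) ^ C := Nat.one_le_pow _ _ (by positivity)
    omega
  have h2C : 2 * C ≤ e.totient := by
    have h1 : 2 ^ (2 * C) ≤ 2 ^ e.totient := by
      refine le_trans ?_ hn5
      rw [pow_mul]
      norm_num
      have : 1 ≤ n ^ (4 * C + 1) := Nat.one_le_pow _ _ hn
      nlinarith [Nat.one_le_pow C 4 (by norm_num)]
    exact (Nat.pow_le_pow_iff_right (by norm_num)).1 h1
  obtain ⟨d, hd⟩ := Nat.exists_eq_add_of_le h2C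
  have h3 : 256 * n ^ (4 * C + 1) ≤ 2 ^ d := by
    rw [hd, pow_add 2 (2 * C) d, pow_mul 2 2 C, show (2 : ℕ) ^ 2 = 4 by norm_num] at hn5
    have h4 : 0 < 4 ^ C := by positivity
    have h5 : 4 ^ C * (256 * n ^ (4 * C + 1)) ≤ 4 ^ C * 2 ^ d := by
      calc 4 ^ C * (256 * n ^ (4 * C + 1)) = 256 * 4 ^ C * n ^ (4 * C + 1) := by ring
        _ ≤ _ := hn5
    exact Nat.le_of_mul_le_mul_left h5 h4
  calc 16 * e * (⌈((n : ℝ) ^ 2 * Real.log q) ^ C⌉₊ + 2) ^ 2 ≤ 16 * n * (4 * (n ^ 2 * q) ^ C) ^ 2 :=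
        Nat.mul_le_mul (Nat.mul_le_mul_left _ hen) (Nat.pow_le_pow_left hM 2)
    _ = q ^ (2 * C) * (256 * n ^ (4 * C + 1)) := by
        ring
    _ ≤ q ^ (2 * C) * 2 ^ d := Nat.mul_le_mul_left _ h3
    _ ≤ q ^ (2 * C) * q ^ d := Nat.mul_le_mul_left _ (Nat.pow_le_pow_left hq d)
    _ = q ^ e.totient := by rw [← pow_add, ← hd]

/-- the number of large divisors -/
theorem card_dvd_le {N n s : ℕ} (hN : 1 ≤ N) (hN' : N ≤ n) (hs0 : 1 ≤ s) (hs : n < (s + 1) * (s + 1)) (T : Finset ℕ)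
    (hT : ∀ e ∈ T, 2 * s ≤ e ∧ e ∣ N) : T.card ≤ s / 2 + 1 := by
  have h1 : T.card ≤ (Finset.Icc 1 (s / 2 + 1)).card := by
    refine Finset.card_le_card_of_injOn (fun e => N / e) ?_ ?_
    · intro e he
      obtain ⟨h2, h3⟩ := hT e he
      obtain ⟨f, rfl⟩ := h3
      have he0 : 0 < e := by omega
      have hf : 1 ≤ f := by
        rcases Nat.eq_zero_or_pos f with h | h
        · rw [h, mul_zero] at hN
          omega
        · exact h
      simp only [Nat.mul_div_cancel_left _ he0, Finset.coe_Icc, Set.mem_Icc]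
      refine ⟨hf, ?_⟩
      have h4 : 2 * s * f ≤ e * f := Nat.mul_le_mul_right _ h2
      by_contra hcon
      have h5 : s / 2 + 2 ≤ f := by omega
      have h6 : 2 * s * (s / 2 + 2) ≤ 2 * s * f := Nat.mul_le_mul_left _ h5
      have h7 : s ≤ 2 * (s / 2) + 1 := by omega
      have h8 : s * s ≤ s * (2 * (s / 2) + 1) := Nat.mul_le_mul_left _ h7
      nlinarith
    · intro e he e' he' hee
      obtain ⟨h2, h3⟩ := hT e he
      obtain ⟨h2', h3'⟩ := hT e' he'
      have hee1 : N / e = N / e' := hee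
      have h4 := Nat.div_mul_cancel h3
      have h5 := Nat.div_mul_cancel h3'
      rw [← hee1] at h5
      have h6 : 0 < N / e := Nat.div_pos (Nat.le_of_dvd hN h3) (by omega)
      exact Nat.eq_of_mul_eq_mul_left h6 (h4.trans h5.symm)
  rwa [Nat.card_Icc, Nat.add_sub_cancel] at h1

/-- the contribution of the large divisors -/
theorem sum_dvd_le {N n s : ℕ} (hN : 1 ≤ N) (hN' : N ≤ n) (hs0 : 2 ≤ s) (hs : n < (s + 1) * (s + 1)) (T : Finset ℕ)
    (hT : ∀ e ∈ T, 2 * s ≤ e ∧ e ∣ N) : ∑ e ∈ T, 1 / (2 * e : ℝ) ≤ 1 / 4 := by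
  have h1 := card_dvd_le hN hN' (by omega) hs T hT
  have hs' : (0 : ℝ) < s := by
    have : 0 < s := by omega
    exact_mod_cast this
  calc ∑ e ∈ T, 1 / (2 * e : ℝ) ≤ ∑ _e ∈ T, 1 / (4 * s : ℝ) := by
        refine Finset.sum_le_sum fun e he => ?_
        have h2 : ((2 * s : ℕ) : ℝ) ≤ e := by exact_mod_cast (hT e he).1
        push_cast at h2
        exact one_div_le_one_div_of_le (by positivity) (by linarith)
    _ = T.card * (1 / (4 * s : ℝ)) := by rw [Finset.sum_const, nsmul_eq_mul]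
    _ ≤ s * (1 / (4 * s : ℝ)) := by
        refine mul_le_mul_of_nonneg_right ?_ (by positivity)
        have : T.card ≤ s := by omega
        exact_mod_cast this
    _ = 1 / 4 := by field_simp

/-- the harmonic sum -/
theorem sum_Ico_ge {s b : ℕ} (hsb : s ≤ b) :
    Real.log (b + 1) - 1 - Real.log s ≤ ∑ k ∈ Finset.Ico s b, 1 / ((k : ℝ) + 1) := by
  have h1 : ∀ m : ℕ, ((harmonic m : ℚ) : ℝ) = ∑ k ∈ Finset.range m, 1 / ((k : ℝ) + 1) := by
    intro m
    rw [harmonic]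
    push_cast
    exact Finset.sum_congr rfl fun k _ => by rw [one_div]
  have h2 := log_add_one_le_harmonic b
  have h3 := harmonic_le_one_add_log s
  rw [h1] at h2 h3
  rw [Finset.sum_Ico_eq_sub _ hsb]
  push_cast at h2
  linarith

/-- the partial sums of the harmonic series up to `n`, divided by `e` -/
theorem harm_le {n e : ℕ} {c : ℝ} (he : 0 < e) (hc : 1 + Real.log n ≤ c * e) :
    ∑ j ∈ Finset.range n, 1 / (((j + 1) * e : ℕ) : ℝ) ≤ c := by
  have h1 : ∑ j ∈ Finset.range n, 1 / (((j + 1) * e : ℕ) : ℝ) = ((harmonic n : ℚ) : ℝ) / e := by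
    rw [harmonic]
    push_cast
    rw [Finset.sum_div]
    refine Finset.sum_congr rfl fun j _ => ?_
    rw [one_div, mul_inv, div_eq_mul_inv]
  have he' : (0 : ℝ) < e := by exact_mod_cast he
  rw [h1, div_le_iff₀ he']
  exact (harmonic_le_one_add_log n).trans hc

/-- the main sum -/
theorem main_sum {n s p : ℕ} (hp : p ≤ 1) (hs2 : 2 ≤ s) (hs' : s * s ≤ n) (hs : n < (s + 1) * (s + 1))
    (hsb : s ≤ n / 8 - 1) {I : Finset ℕ}
    (hI : ∀ k ∈ Finset.Ico s (n / 8 - 1), ¬ (2 * k + p) ∣ n → ¬ (2 * k + p) ∣ (n - 1) / 2 → ¬ (2 * k + p) ∣ (n + 1) / 2 →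
      2 * k + p ∈ I) : Real.log n / 8 - 2 ≤ ∑ e ∈ I, 1 / (2 * e : ℝ) := by
  classical
  set b := n / 8 - 1 with hb
  set J : Finset ℕ := (Finset.Ico s b).image (fun k => 2 * k + p) with hJ
  have hJs : ∀ e ∈ J, 2 * s ≤ e := by
    intro e he
    obtain ⟨k, hk, rfl⟩ := Finset.mem_image.1 he
    have := (Finset.mem_Ico.1 hk).1
    omega
  have hn3 : 3 ≤ n := by nlinarith
  have hJsum : ∑ e ∈ J, 1 / (2 * e : ℝ) = ∑ k ∈ Finset.Ico s b, 1 / (2 * ((2 * k + p : ℕ) : ℝ)) := by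
    rw [hJ, Finset.sum_image]
    intro k _ k' _ h
    have : 2 * k + p = 2 * k' + p := h
    omega
  have h1 : (1 / 4) * ∑ k ∈ Finset.Ico s b, 1 / ((k : ℝ) + 1) ≤ ∑ e ∈ J, 1 / (2 * e : ℝ) := by
    rw [hJsum, Finset.mul_sum]
    refine Finset.sum_le_sum fun k hk => ?_
    have hk1 : 2 ≤ k := by
      have := (Finset.mem_Ico.1 hk).1
      omega
    have hk0 : (0 : ℝ) < 2 * ((2 * k + p : ℕ) : ℝ) := by
      have : 0 < 2 * (2 * k + p) := by omega
      exact_mod_cast this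
    rw [div_mul_div_comm, one_mul]
    refine one_div_le_one_div_of_le hk0 ?_
    have : 2 * (2 * k + p) ≤ 4 * (k + 1) := by omega
    exact_mod_cast this
  -- excluded
  set T : ℕ → Finset ℕ := fun N => J.filter (fun e => e ∣ N) with hT
  have hTs : ∀ N, 1 ≤ N → N ≤ n → ∑ e ∈ T N, 1 / (2 * e : ℝ) ≤ 1 / 4 := by
    intro N hN hN'
    refine sum_dvd_le hN hN' hs2 hs (T N) fun e he => ?_
    rw [hT, Finset.mem_filter] at he
    exact ⟨hJs e he.1, he.2⟩
  have hnn : ∀ e : ℕ, (0 : ℝ) ≤ 1 / (2 * e : ℝ) := fun e => by positivity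
  have hsub : J ⊆ I ∪ (T n ∪ (T ((n - 1) / 2) ∪ T ((n + 1) / 2))) := by
    intro e he
    by_cases h2 : e ∣ n
    · exact Finset.mem_union_right _ (Finset.mem_union_left _ (Finset.mem_filter.2 ⟨he, h2⟩))
    by_cases h3 : e ∣ (n - 1) / 2
    · exact Finset.mem_union_right _ (Finset.mem_union_right _ (Finset.mem_union_left _ (Finset.mem_filter.2 ⟨he, h3⟩)))
    by_cases h4 : e ∣ (n + 1) / 2
    · exact Finset.mem_union_right _ (Finset.mem_union_right _ (Finset.mem_union_right _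
        (Finset.mem_filter.2 ⟨he, h4⟩)))
    refine Finset.mem_union_left _ ?_
    obtain ⟨k, hk, rfl⟩ := Finset.mem_image.1 he
    exact hI k hk h2 h3 h4
  have hun : ∀ A B : Finset ℕ, ∑ e ∈ A ∪ B, 1 / (2 * e : ℝ) ≤ ∑ e ∈ A, 1 / (2 * e : ℝ) + ∑ e ∈ B, 1 / (2 * e : ℝ) := by
    intro A B
    rw [← Finset.sum_union_inter]
    exact le_add_of_nonneg_right (Finset.sum_nonneg fun e _ => hnn e)
  have h2 : ∑ e ∈ J, 1 / (2 * e : ℝ) ≤ ∑ e ∈ I, 1 / (2 * e : ℝ) + (1 / 4 + (1 / 4 + 1 / 4)) := by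
    refine (Finset.sum_le_sum_of_subset_of_nonneg hsub fun e _ _ => hnn e).trans ?_
    refine (hun _ _).trans (add_le_add le_rfl ?_)
    refine (hun _ _).trans (add_le_add (hTs _ (by omega) le_rfl) ?_)
    exact (hun _ _).trans (add_le_add (hTs _ (by omega) (by omega)) (hTs _ (by omega) (by omega)))
  -- the logarithms
  have h3 := sum_Ico_ge hsb
  have hb1 : (b : ℝ) + 1 = ((n / 8 : ℕ) : ℝ) := by
    have : b + 1 = n / 8 := by omega
    exact_mod_cast this
  have hn0 : (0 : ℝ) < n := by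
    have : 0 < n := by omega
    exact_mod_cast this
  have h4 : Real.log n - Real.log 16 ≤ Real.log (b + 1) := by
    rw [← Real.log_div hn0.ne' (by norm_num), hb1]
    refine Real.log_le_log (by positivity) ?_
    rw [div_le_iff₀ (by norm_num)]
    have : n ≤ (n / 8) * 16 := by omega
    exact_mod_cast this
  have h5 : Real.log s ≤ Real.log n / 2 := by
    have hs0 : (0 : ℝ) < s := by
      have : 0 < s := by omega
      exact_mod_cast this
    have h6 : Real.log (s * s) ≤ Real.log n := by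
      refine Real.log_le_log (by positivity) ?_
      exact_mod_cast hs'
    rw [Real.log_mul hs0.ne' hs0.ne'] at h6
    linarith
  have h6 : Real.log 16 ≤ 4 := by
    have h7 : Real.log 16 = 4 * Real.log 2 := by
      rw [show (16 : ℝ) = 2 ^ 4 by norm_num, Real.log_pow]
      norm_num
    have h8 := Real.log_two_lt_d9
    rw [h7]
    linarith
  linarith

/-- **RG-L20** -/
theorem l20 : Cfsg.Agent.H50.RG.L20 := by
  classical
  intro K η C par hη
  obtain ⟨U, hU⟩ := exp_large C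
  -- `log` against the square root
  have hlog : ∀ᶠ n : ℕ in atTop, 1 + Real.log n ≤ η * Real.sqrt n := by
    have h1 := isLittleO_log_rpow_atTop (r := 1 / 2) (by norm_num)
    have h2 := h1.bound (show (0 : ℝ) < η / 2 by positivity)
    have h3 : ∀ᶠ x : ℝ in atTop, 1 ≤ η / 2 * Real.sqrt x := by
      have h4 : Tendsto (fun x : ℝ => η / 2 * Real.sqrt x) atTop atTop :=
        Real.tendsto_sqrt_atTop.const_mul_atTop (by positivity)
      exact h4.eventually_ge_atTop 1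
    have h5 : ∀ᶠ x : ℝ in atTop, 1 + Real.log x ≤ η * Real.sqrt x := by
      filter_upwards [h2, h3, eventually_ge_atTop 0] with x h2 h3 h0
      rw [← Real.sqrt_eq_rpow, Real.norm_eq_abs, Real.norm_eq_abs, abs_of_nonneg (Real.sqrt_nonneg x)] at h2
      have := (le_abs_self (Real.log x)).trans h2
      linarith
    exact tendsto_natCast_atTop_atTop.eventually h5
  have hK : ∀ᶠ n : ℕ in atTop, K ≤ Real.log n / 8 - 2 := by
    have h1 : Tendsto (fun n : ℕ => Real.log n) atTop atTop := Real.tendsto_log_atTop.comp tendsto_natCast_atTop_atTop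
    filter_upwards [h1.eventually_ge_atTop (8 * (K + 2))] with n hn
    linarith
  obtain ⟨N1, hN1⟩ := eventually_atTop.1 hlog
  obtain ⟨N2, hN2⟩ := eventually_atTop.1 hK
  refine ⟨max (max N1 N2) (max (U ^ 4) 1000), fun n q hn hq => ?_⟩
  have hn1 : N1 ≤ n := (le_max_left _ _).trans ((le_max_left _ _).trans hn)
  have hn2 : N2 ≤ n := (le_max_right _ _).trans ((le_max_left _ _).trans hn)
  have hn3 : U ^ 4 ≤ n := (le_max_left _ _).trans ((le_max_right _ _).trans hn)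
  have hn4 : 1000 ≤ n := (le_max_right _ _).trans ((le_max_right _ _).trans hn)
  set s := Nat.sqrt n with hs
  set u := Nat.sqrt s with hu
  have hs1 : s * s ≤ n := Nat.sqrt_le n
  have hs2 : n < (s + 1) * (s + 1) := Nat.lt_succ_sqrt n
  have hu1 : u * u ≤ s := Nat.sqrt_le s
  have hu2 : s < (u + 1) * (u + 1) := Nat.lt_succ_sqrt s
  have hUu : U ≤ u := by
    rw [hu, Nat.le_sqrt, hs, Nat.le_sqrt]
    calc U * U * (U * U) = U ^ 4 := by ring
      _ ≤ n := hn3
  have hs30 : 30 ≤ s := by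
    rw [hs, Nat.le_sqrt]
    omega
  have hsb : s ≤ n / 8 - 1 := by
    have h1 : 30 * s ≤ n := (Nat.mul_le_mul_right _ hs30).trans hs1
    omega
  set p := par % 2 with hp
  have hp1 : p ≤ 1 := by omega
  set I : Finset ℕ := (Finset.range n).filter (fun e => 2 * s ≤ e ∧ e % 2 = par % 2 ∧ 4 * e + 8 ≤ n ∧ ¬ e ∣ n ∧
    ¬ e ∣ (n - 1) / 2 ∧ ¬ e ∣ (n + 1) / 2) with hI
  refine ⟨I, ⌈((n : ℝ) ^ 2 * Real.log q) ^ C⌉₊ + 2, by omega, ?_, ?_, ?_⟩
  · have := Nat.le_ceil (((n : ℝ) ^ 2 * Real.log q) ^ C)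
    push_cast
    linarith
  · intro e he
    rw [hI, Finset.mem_filter, Finset.mem_range] at he
    obtain ⟨he1, he2, he3, he4, he5, he6, he7⟩ := he
    refine ⟨by omega, he3, he4, he5, he6, he7, ?_, ?_⟩
    · exact bound_M (by omega) hq (hU u hUu) hu1 hu2 hs2 he2 (by omega) (by omega)
    · refine harm_le (by omega) ((hN1 n hn1).trans (mul_le_mul_of_nonneg_left ?_ hη.le))
      rw [Real.sqrt_le_left (Nat.cast_nonneg e)]
      have h1 : n ≤ e ^ 2 := by nlinarith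
      exact_mod_cast h1
  · refine (hN2 n hn2).trans (main_sum hp1 (by omega) hs1 hs2 hsb ?_)
    intro k hk h1 h2 h3
    rw [Finset.mem_Ico] at hk
    rw [hI, Finset.mem_filter, Finset.mem_range]
    exact ⟨by omega, by omega, by omega, by omega, h1, h2, h3⟩

end Cfsg.Agent.H270.RG
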